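import Mathlib

/-!
# N2 (S3519): unitary elements of a finite commutative ring with involution (helper53)

`uu σ` = number of `u` with `u * σ u = 1`, `sk σ ⊤` = number of skew elements.
* `uu_le` : `sk σ ⊤ < Q ^ (ν + 1) → uu σ * Q ^ ν ≤ 2 ^ |T| * sk σ ⊤ * (Q + 1) ^ ν`, where `E` is a family of `Q` symmetric elements
  with invertible differences and `T` contains the maximal ideals on whose residue field `σ` is trivial;
* `uu_le_pow` : `sk σ ⊤ ≤ Q ^ ν → uu σ ≤ 2 ^ |T| * (Q + 1) ^ ν`.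
-/

set_option autoImplicit false

namespace Cfsg.Agent.N2.Cy

universe u

variable {R : Type u} [CommRing R]

/-- the number of unitary elements -/
noncomputable def uu (σ : R →+* R) : ℕ := Nat.card {u : R // u * σ u = 1}

/-- the number of unitary elements congruent to `1` modulo `I` -/
noncomputable def uk (σ : R →+* R) (I : Ideal R) : ℕ := Nat.card {u : R // u * σ u = 1 ∧ u - 1 ∈ I}

/-- the number of skew elements of `I` -/
noncomputable def sk (σ : R →+* R) (I : Ideal R) : ℕ := Nat.card {x : R // x ∈ I ∧ σ x = -x}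

/-- the induced involution -/
def qs (σ : R →+* R) (I : Ideal R) (h : ∀ x ∈ I, σ x ∈ I) : R ⧸ I →+* R ⧸ I := Ideal.quotientMap I σ fun x hx => h x hx

theorem qs_mk (σ : R →+* R) (I : Ideal R) (h : ∀ x ∈ I, σ x ∈ I) (x : R) :
    qs σ I h (Ideal.Quotient.mk I x) = Ideal.Quotient.mk I (σ x) := rfl

variable [Finite R] {σ : R →+* R} {I : Ideal R}

theorem fin_quot (I : Ideal R) : Finite (R ⧸ I) := Finite.of_surjective _ Ideal.Quotient.mk_surjective

theorem sk_pos (σ : R →+* R) (I : Ideal R) : 0 < sk σ I :=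
  have : Nonempty {x : R // x ∈ I ∧ σ x = -x} := ⟨⟨0, I.zero_mem, by simp⟩⟩
  Nat.card_pos

theorem uu_le_mul (hσ : ∀ x, σ (σ x) = x) (h : ∀ x ∈ I, σ x ∈ I) : uu σ ≤ uk σ I * uu (qs σ I h) := by
  classical
  have := fin_quot I
  let f : {u : R // u * σ u = 1} → {u : R ⧸ I // u * qs σ I h u = 1} := fun u =>
    ⟨Ideal.Quotient.mk I u.1, by rw [qs_mk, ← map_mul, u.2, map_one]⟩
  let g : {u : R ⧸ I // u * qs σ I h u = 1} → R := fun v => if hv : ∃ u, f u = v then hv.choose.1 else 1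
  have hg : ∀ u, g (f u) * σ (g (f u)) = 1 ∧ u.1 - g (f u) ∈ I := fun u => by
    have h1 : ∃ w, f w = f u := ⟨u, rfl⟩
    simp only [g, dif_pos h1]
    exact ⟨h1.choose.2, Ideal.Quotient.eq.1 (congrArg Subtype.val h1.choose_spec).symm⟩
  rw [uu, uk, uu, ← Nat.card_prod]
  refine Nat.card_le_card_of_injective (fun u => (⟨u.1 * σ (g (f u)), ?_, ?_⟩, f u)) fun u v e => ?_
  · rw [map_mul, hσ]
    linear_combination (g (f u) * σ (g (f u))) * u.2 + (hg u).1
  · have h1 := I.mul_mem_right (σ (g (f u))) (hg u).2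
    rwa [sub_mul, (hg u).1] at h1
  · obtain ⟨e1, e2⟩ := Prod.mk.inj e
    have e3 : u.1 * σ (g (f u)) = v.1 * σ (g (f v)) := congrArg Subtype.val e1
    rw [← e2] at e3
    exact Subtype.ext (by linear_combination g (f u) * e3 - (u.1 - v.1) * (hg u).1)

theorem sk_mul_le (hσ : ∀ x, σ (σ x) = x) {c : R} (hc : c + σ c = 1) (h : ∀ x ∈ I, σ x ∈ I) :
    sk σ I * sk (qs σ I h) ⊤ ≤ sk σ ⊤ := by
  have h1 : ∀ v : {x : R ⧸ I // x ∈ (⊤ : Ideal (R ⧸ I)) ∧ qs σ I h x = -x}, ∃ y : R, σ y = -y ∧ Ideal.Quotient.mk I y = v.1 := by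
    rintro ⟨v, -, hv⟩
    obtain ⟨y, rfl⟩ := Ideal.Quotient.mk_surjective v
    have h2 : σ y + y ∈ I := Ideal.Quotient.eq_zero_iff_mem.1 (by rw [map_add, ← qs_mk σ I h, hv, neg_add_cancel])
    refine ⟨c * y - σ (c * y), by rw [map_sub, hσ, neg_sub], Ideal.Quotient.eq.2 ?_⟩
    have h3 := I.mul_mem_left (-σ c) h2
    rwa [show -σ c * (σ y + y) = c * y - σ (c * y) - y by rw [map_mul]; linear_combination (-y) * hc] at h3
  choose g hg hg' using h1
  rw [sk, sk, sk, ← Nat.card_prod]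
  refine Nat.card_le_card_of_injective (fun p => ⟨p.1.1 + g p.2, trivial, by rw [map_add, p.1.2.2, hg, neg_add]⟩) ?_
  rintro ⟨x, v⟩ ⟨x', v'⟩ e
  have e1 : x.1 + g v = x'.1 + g v' := congrArg Subtype.val e
  have e2 := congrArg (Ideal.Quotient.mk I) e1
  rw [map_add, map_add, hg', hg', Ideal.Quotient.eq_zero_iff_mem.2 x.2.1, Ideal.Quotient.eq_zero_iff_mem.2 x'.2.1, zero_add,
    zero_add] at e2
  obtain rfl : v = v' := Subtype.ext e2
  exact Prod.ext (Subtype.ext (add_right_cancel e1)) rfl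

theorem uk_le_nil (h : ∀ x ∈ I, σ x ∈ I) (h0 : ∀ x ∈ I, ∀ y ∈ I, x * y = 0) : uk σ I ≤ sk σ I := by
  refine Nat.card_le_card_of_injective (fun u => ⟨u.1 - 1, u.2.2, ?_⟩) fun u v e =>
    Subtype.ext (sub_left_injective (congrArg Subtype.val e))
  have h1 := h0 _ u.2.2 _ (h _ u.2.2)
  rw [map_sub, map_one] at h1 ⊢
  linear_combination u.2.1 - h1

/-- a minimal stable ideal with an identity element -/
structure Mi (σ : R →+* R) (I : Ideal R) (e : R) : Prop where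
  inv : ∀ x, σ (σ x) = x
  st : ∀ x ∈ I, σ x ∈ I
  mem : e ∈ I
  one : ∀ x ∈ I, x * e = x
  min : ∀ J : Ideal R, J ≠ ⊥ → (∀ x ∈ J, σ x ∈ J) → J ≤ I → I ≤ J

omit [Finite R] in
theorem Mi.fix {e : R} (h : Mi σ I e) : σ e = e := by
  have h1 := h.one _ (h.st e h.mem)
  have h2 := congrArg σ h1
  rw [map_mul, h.inv] at h2
  rw [← h1, mul_comm, h2]

omit [Finite R] in
theorem Mi.unit {e x w : R} (h : Mi σ I e) (hx : x ∈ I) (h0 : x ≠ 0) (hw : σ x = w * x) : ∃ z, z * x = e := by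
  refine Ideal.mem_span_singleton'.1 (h.min (Ideal.span {x}) (by simpa using h0) (fun y hy => ?_)
    ((Ideal.span_singleton_le_iff_mem I).2 hx) h.mem)
  obtain ⟨a, rfl⟩ := Ideal.mem_span_singleton'.1 hy
  exact Ideal.mem_span_singleton'.2 ⟨σ a * w, by rw [map_mul, hw, mul_assoc]⟩

omit [Finite R] in
theorem Mi.uk_le_two {e : R} (h : Mi σ I e) (ht : ∀ x ∈ I, σ x = x) : uk σ I ≤ 2 := by
  have h1 : ∀ u : {u : R // u * σ u = 1 ∧ u - 1 ∈ I}, u.1 ≠ 1 → u.1 = 1 - 2 * e := fun u hu => by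
    obtain ⟨z, hz⟩ := h.unit u.2.2 (sub_ne_zero.2 hu) ((ht _ u.2.2).trans (one_mul _).symm)
    have h2 := ht _ u.2.2
    have h3 := h.one _ u.2.2
    have h4 := u.2.1
    rw [map_sub, map_one, sub_left_inj] at h2
    rw [h2] at h4
    linear_combination z * h4 - h3 - (u.1 + 1) * hz
  have h2 := Nat.card_le_card_of_injective (fun u : {u : R // u * σ u = 1 ∧ u - 1 ∈ I} => u.1 = 1) fun u v e => by
    by_cases hu : u.1 = 1
    · exact Subtype.ext (hu.trans (Eq.mp e hu).symm)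
    · exact Subtype.ext ((h1 u hu).trans (h1 v fun hv => hu (Eq.mpr e hv)).symm)
  simpa [uk] using h2

theorem Mi.uk_le {e y : R} (h : Mi σ I e) (hy : y ∈ I) (hn : σ y ≠ y) : uk σ I ≤ sk σ I + 1 := by
  have hy0 : y - σ y ≠ 0 := sub_ne_zero.2 hn.symm
  have hy1 : y - σ y ∈ I := I.sub_mem hy (h.st y hy)
  have hy2 : σ (y - σ y) = -(y - σ y) := by rw [map_sub, h.inv, neg_sub]
  obtain ⟨z, hz⟩ := h.unit hy1 hy0 (w := -1) (by rw [hy2, neg_one_mul])
  have h1 : ∀ u : {u : R // u * σ u = 1 ∧ u - 1 ∈ I}, ∃ x ∈ I, x ≠ 0 ∧ u.1 * σ x = x := fun u => by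
    by_contra hx
    push Not at hx
    have h2 : ∀ t ∈ I, t + u.1 * σ t = 0 := fun t ht => by
      by_contra h3
      refine hx _ (I.add_mem ht (I.mul_mem_left _ (h.st t ht))) h3 ?_
      rw [map_add, map_mul, h.inv]
      linear_combination t * u.2.1
    have h3 := h2 e h.mem
    have h4 := h.one _ (h.st y hy)
    rw [h.fix] at h3
    exact hn (by linear_combination -h2 y hy + σ y * h3 - (u.1 + 1) * h4)
  choose g hg hg0 hg1 using h1
  have hgu : ∀ u, ∃ z, z * g u = e := fun u => h.unit (hg u) (hg0 u) (w := σ u.1) (by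
    have h2 := congrArg σ (hg1 u)
    rwa [map_mul, h.inv, eq_comm] at h2)
  have c1 : uk σ I * Nat.card {x : {x : R // x ∈ I ∧ σ x = -x} // x ≠ ⟨0, I.zero_mem, by simp⟩} ≤ Nat.card {x : I // x ≠ 0} := by
    rw [uk, ← Nat.card_prod]
    have hne : ∀ u, ∀ s : {x : {x : R // x ∈ I ∧ σ x = -x} // x ≠ ⟨0, I.zero_mem, by simp⟩}, g u * s.1.1 ≠ 0 := fun u s h0 => by
      obtain ⟨w, hw⟩ := hgu u
      refine s.2 (Subtype.ext ?_)
      show s.1.1 = 0
      linear_combination w * h0 - h.one _ s.1.2.1 - s.1.1 * hw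
    refine Nat.card_le_card_of_injective (fun p => ⟨⟨g p.1 * p.2.1.1, I.mul_mem_right _ (hg _)⟩, fun h0 =>
      hne _ _ (congrArg Subtype.val h0)⟩) ?_
    rintro ⟨u, s⟩ ⟨v, t⟩ e0
    have e1 : g u * s.1.1 = g v * t.1.1 := congrArg (fun x => x.1.1) e0
    have e2 : ∀ u, ∀ s : {x : R // x ∈ I ∧ σ x = -x}, u.1 * σ (g u * s.1) = -(g u * s.1) := fun u s => by
      rw [map_mul, s.2.2]
      linear_combination (-s.1) * hg1 u
    obtain ⟨w, hw⟩ := h.unit (I.mul_mem_right s.1.1 (hg u)) (hne u s) (w := -σ u.1) (by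
      linear_combination σ u.1 * e2 u s.1 - σ (g u * s.1.1) * u.2.1)
    have e3 := congrArg σ hw
    rw [map_mul, h.fix] at e3
    have e4 := e2 v t.1
    rw [← e1] at e4
    have e5 := h.one _ (I.sub_mem u.2.2 v.2.2)
    obtain rfl : u = v := Subtype.ext (by linear_combination σ w * (e2 u s.1 - e4) - (u.1 - v.1) * e3 - e5)
    obtain ⟨w', hw'⟩ := hgu u
    refine Prod.ext rfl (Subtype.ext (Subtype.ext ?_))
    show s.1.1 = t.1.1
    linear_combination w' * e1 - h.one _ s.1.2.1 + h.one _ t.1.2.1 - (s.1.1 - t.1.1) * hw'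
  have c2 : Nat.card I ≤ sk σ I * sk σ I := by
    let φ : I →+ R := (AddMonoidHom.id R - σ.toAddMonoidHom).comp I.toAddSubgroup.subtype
    have hφ : ∀ x : I, φ x = x - σ x := fun _ => rfl
    rw [AddSubgroup.card_eq_card_quotient_mul_card_addSubgroup φ.ker, Nat.card_congr (QuotientAddGroup.quotientKerEquivRange φ).toEquiv]
    refine Nat.mul_le_mul (Nat.card_le_card_of_injective (fun x => ⟨x.1, ?_⟩) fun _ _ e => Subtype.ext (Subtype.mk.inj e))
      (Nat.card_le_card_of_injective (fun x => ⟨(y - σ y) * x.1.1, I.mul_mem_right _ hy1, ?_⟩) fun a b e => ?_)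
    · obtain ⟨_, x, rfl⟩ := x
      exact ⟨I.sub_mem x.2 (h.st _ x.2), show σ (x - σ x) = -(x - σ x) by rw [map_sub, h.inv, neg_sub]⟩
    · have h2 : x.1.1 - σ x.1.1 = 0 := x.2
      rw [map_mul, hy2, ← sub_eq_zero.1 h2, neg_mul]
    · have e1 : (y - σ y) * a.1.1 = (y - σ y) * b.1.1 := congrArg Subtype.val e
      refine Subtype.ext (Subtype.ext ?_)
      linear_combination z * e1 - h.one _ a.1.2 + h.one _ b.1.2 - (a.1.1 - b.1.1) * hz
  have c3 : ∀ {α : Type u} [Finite α] (a : α), Nat.card {x : α // x ≠ a} + 1 = Nat.card α := fun {α} _ a => by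
    classical
    have := Fintype.ofFinite α
    have : Nonempty α := ⟨a⟩
    have h2 := Fintype.card_pos (α := α)
    rw [Nat.card_eq_fintype_card, Nat.card_eq_fintype_card, Fintype.card_subtype_compl, Fintype.card_subtype_eq]
    omega
  have c4 := c3 (⟨0, I.zero_mem, by simp⟩ : {x : R // x ∈ I ∧ σ x = -x})
  have c5 := c3 (0 : I)
  have c6 : 0 < Nat.card {x : {x : R // x ∈ I ∧ σ x = -x} // x ≠ ⟨0, I.zero_mem, by simp⟩} :=
    have : Nonempty {x : {x : R // x ∈ I ∧ σ x = -x} // x ≠ ⟨0, I.zero_mem, by simp⟩} :=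
      ⟨⟨⟨_, hy1, hy2⟩, fun e => hy0 (congrArg Subtype.val e)⟩⟩
    Nat.card_pos
  rw [sk] at c2 ⊢
  rw [← c4] at c2 ⊢
  rw [← c5] at c2
  generalize Nat.card {x : {x : R // x ∈ I ∧ σ x = -x} // x ≠ ⟨0, I.zero_mem, by simp⟩} = s at c1 c2 c6 ⊢
  exact Nat.le_of_mul_le_mul_right (by nlinarith) c6

theorem le_sk {ι : Type*} {E : ι → R} (hE : ∀ i, σ (E i) = E i) (hu : ∀ i j, i ≠ j → IsUnit (E i - E j)) {y : R} (hy : y ∈ I)
    (h0 : y ≠ 0) (hs : σ y = -y) : Nat.card ι ≤ sk σ I := by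
  refine Nat.card_le_card_of_injective (fun i => ⟨E i * y, I.mul_mem_left _ hy, by rw [map_mul, hE, hs, mul_neg]⟩) fun i j e => ?_
  by_contra hij
  have e1 : E i * y = E j * y := congrArg Subtype.val e
  exact h0 ((hu i j hij).mul_right_eq_zero.1 (by rw [sub_mul, e1, sub_self]))

theorem uu_le_aux {ι : Type*} (n : ℕ) : ∀ (R : Type u) [CommRing R] [Finite R] (σ : R →+* R) (c : R) (E : ι → R)
    (T : Finset (Ideal R)) (ν : ℕ), Nat.card R = n → (∀ x, σ (σ x) = x) → c + σ c = 1 → (∀ i, σ (E i) = E i) →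
    (∀ i j, i ≠ j → IsUnit (E i - E j)) → (∀ M : Ideal R, M.IsMaximal → (∀ x, x - σ x ∈ M) → M ∈ T) →
    sk σ ⊤ < Nat.card ι ^ (ν + 1) → uu σ * Nat.card ι ^ ν ≤ 2 ^ T.card * sk σ ⊤ * (Nat.card ι + 1) ^ ν := by
  classical
  induction n using Nat.strong_induction_on with
  | _ n ih =>
  intro R _ _ σ c E T ν hn hσ hc hE hu hT hν
  generalize hQ : Nat.card ι = Q at ih hν ⊢
  rcases subsingleton_or_nontrivial R with hR | hR
  · have h1 : uu σ ≤ 1 := Finite.card_le_one_iff_subsingleton.2 inferInstance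
    exact Nat.mul_le_mul (h1.trans (Nat.mul_pos (by positivity) (sk_pos σ ⊤))) (Nat.pow_le_pow_left (Nat.le_succ Q) ν)
  have : Finite (Ideal R) := Finite.of_injective _ SetLike.coe_injective
  obtain ⟨I, ⟨hI0, hI⟩, hmin⟩ := exists_minimal_of_wellFoundedLT (fun J : Ideal R => J ≠ ⊥ ∧ ∀ x ∈ J, σ x ∈ J)
    ⟨⊤, top_ne_bot, fun _ _ => trivial⟩
  have := fin_quot I
  have hlt : Nat.card (R ⧸ I) < n := by
    have h1 := AddSubgroup.card_eq_card_quotient_mul_card_addSubgroup I.toAddSubgroup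
    have h2 : 1 < Nat.card I.toAddSubgroup := Finite.one_lt_card_iff_nontrivial.2 (Submodule.nontrivial_iff_ne_bot.2 hI0)
    have h3 : 0 < Nat.card (R ⧸ I) := Nat.card_pos
    rw [← hn, h1]
    exact lt_mul_of_one_lt_right h3 h2
  have step : ∀ (T' : Finset (Ideal R)) (ν' : ℕ), (∀ M : Ideal R, M.IsMaximal → (∀ x, x - σ x ∈ M) → I ≤ M → M ∈ T') →
      sk (qs σ I hI) ⊤ < Q ^ (ν' + 1) → uu (qs σ I hI) * Q ^ ν' ≤ 2 ^ T'.card * sk (qs σ I hI) ⊤ * (Q + 1) ^ ν' := by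
    intro T' ν' hT' h1
    refine (ih _ hlt (R ⧸ I) (qs σ I hI) (Ideal.Quotient.mk I c) (fun i => Ideal.Quotient.mk I (E i))
      (T'.image (Ideal.map (Ideal.Quotient.mk I))) ν' rfl (fun x => ?_) (by rw [qs_mk, ← map_add, hc, map_one])
      (fun i => by rw [qs_mk, hE]) (fun i j hij => by rw [← map_sub]; exact (hu i j hij).map _) (fun M hM hM' => ?_) h1).trans
      (Nat.mul_le_mul_right _ (Nat.mul_le_mul_right _ (Nat.pow_le_pow_right two_pos Finset.card_image_le)))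
    · obtain ⟨x, rfl⟩ := Ideal.Quotient.mk_surjective x
      rw [qs_mk, qs_mk, hσ]
    · refine Finset.mem_image.2 ⟨M.comap (Ideal.Quotient.mk I), hT' _
        (Ideal.comap_isMaximal_of_surjective _ Ideal.Quotient.mk_surjective) (fun x => ?_) fun x hx => ?_,
        Ideal.map_comap_of_surjective _ Ideal.Quotient.mk_surjective M⟩
      · rw [Ideal.mem_comap, map_sub, ← qs_mk σ I hI]
        exact hM' _
      · rw [Ideal.mem_comap, Ideal.Quotient.eq_zero_iff_mem.2 hx]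
        exact M.zero_mem
  have k1 := uu_le_mul hσ hI
  have k2 := sk_mul_le hσ hc hI
  have k3 := sk_pos σ I
  have k4 : sk (qs σ I hI) ⊤ ≤ sk σ ⊤ := (Nat.le_mul_of_pos_left _ k3).trans k2
  by_cases h0 : ∀ x ∈ I, ∀ y ∈ I, x * y = 0
  · have h1 := step T ν (fun M h1 h2 _ => hT M h1 h2) (k4.trans_lt hν)
    calc uu σ * Q ^ ν ≤ sk σ I * (uu (qs σ I hI) * Q ^ ν) := by
          rw [← mul_assoc]
          exact Nat.mul_le_mul_right _ (k1.trans (Nat.mul_le_mul_right _ (uk_le_nil hI h0)))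
      _ ≤ sk σ I * (2 ^ T.card * sk (qs σ I hI) ⊤ * (Q + 1) ^ ν) := Nat.mul_le_mul_left _ h1
      _ = 2 ^ T.card * (sk σ I * sk (qs σ I hI) ⊤) * (Q + 1) ^ ν := by ring
      _ ≤ _ := Nat.mul_le_mul_right _ (Nat.mul_le_mul_left _ k2)
  have hII : IsIdempotentElem I := by
    refine le_antisymm Ideal.mul_le_right (hmin ⟨fun h1 => h0 fun x hx y hy => ?_, fun x hx => ?_⟩ Ideal.mul_le_right)
    · have h2 := Ideal.mul_mem_mul hx hy
      rwa [h1] at h2
    · refine Submodule.mul_induction_on hx (fun a ha b hb => ?_) fun a b ha hb => ?_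
      · rw [map_mul]
        exact Ideal.mul_mem_mul (hI a ha) (hI b hb)
      · rw [map_add]
        exact add_mem ha hb
  obtain ⟨e, he, hIe⟩ := (Ideal.isIdempotentElem_iff_of_fg I (IsNoetherian.noetherian I)).1 hII
  have hm : Mi σ I e := ⟨hσ, hI, hIe ▸ Submodule.mem_span_singleton_self e, fun x hx => by
    obtain ⟨a, rfl⟩ := Ideal.mem_span_singleton'.1 (hIe ▸ hx)
    rw [mul_assoc, he.eq], fun J h1 h2 h3 => hmin ⟨h1, h2⟩ h3⟩
  have he0 : e ≠ 0 := fun h1 => hI0 (by rw [hIe, h1]; simp)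
  by_cases ht : ∀ x ∈ I, σ x = x
  · let J : Ideal R := LinearMap.ker (LinearMap.toSpanSingleton R R e)
    have hJ : ∀ x, x ∈ J ↔ x * e = 0 := fun _ => Iff.rfl
    have hJT : J ∈ T := by
      refine hT J (Ideal.isMaximal_iff.2 ⟨fun h1 => he0 (by simpa [hJ] using h1), fun K x hK hx hxK => ?_⟩) fun x => ?_
      · obtain ⟨z, hz⟩ := hm.unit (I.mul_mem_left x hm.mem) hx ((ht _ (I.mul_mem_left x hm.mem)).trans (one_mul _).symm)
        have h2 := K.add_mem (hK ((hJ (1 - z * x)).2 (by linear_combination -hz))) (K.mul_mem_left z hxK)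
        rwa [sub_add_cancel] at h2
      · have h2 := ht _ (I.mul_mem_left x hm.mem)
        rw [map_mul, hm.fix] at h2
        exact (hJ _).2 (by linear_combination -h2)
    have h1 := step (T.erase J) ν (fun M h1 h2 h3 => Finset.mem_erase.2 ⟨fun h4 => he0 (by
      have h5 := h3 hm.mem
      rwa [h4, hJ, he.eq] at h5), hT M h1 h2⟩) (k4.trans_lt hν)
    calc uu σ * Q ^ ν ≤ 2 * (uu (qs σ I hI) * Q ^ ν) := by
          rw [← mul_assoc]
          exact Nat.mul_le_mul_right _ (k1.trans (Nat.mul_le_mul_right _ (hm.uk_le_two ht)))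
      _ ≤ 2 * (2 ^ (T.erase J).card * sk (qs σ I hI) ⊤ * (Q + 1) ^ ν) := Nat.mul_le_mul_left _ h1
      _ = 2 ^ T.card * sk (qs σ I hI) ⊤ * (Q + 1) ^ ν := by
          rw [← Finset.card_erase_add_one hJT]
          ring
      _ ≤ _ := Nat.mul_le_mul_right _ (Nat.mul_le_mul_left _ k4)
  · push Not at ht
    obtain ⟨y, hy, hn'⟩ := ht
    have h2 : Q ≤ sk σ I := hQ ▸ le_sk hE hu (I.sub_mem hy (hI y hy)) (sub_ne_zero.2 hn'.symm) (by rw [map_sub, hσ, neg_sub])
    have h3 : Q * sk (qs σ I hI) ⊤ < Q ^ (ν + 1) := ((Nat.mul_le_mul_right _ h2).trans k2).trans_lt hν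
    rw [pow_succ'] at h3
    have h4 := Nat.lt_of_mul_lt_mul_left h3
    obtain _ | ν := ν
    · have := sk_pos (qs σ I hI) ⊤
      rw [pow_zero] at h4
      omega
    have h1 := step T ν (fun M h1 h2 _ => hT M h1 h2) h4
    calc uu σ * Q ^ (ν + 1) ≤ (sk σ I + 1) * Q * (uu (qs σ I hI) * Q ^ ν) := by
          have := k1.trans (Nat.mul_le_mul_right _ (hm.uk_le hy hn'))
          calc uu σ * Q ^ (ν + 1) ≤ (sk σ I + 1) * uu (qs σ I hI) * Q ^ (ν + 1) := Nat.mul_le_mul_right _ this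
            _ = _ := by ring
      _ ≤ sk σ I * (Q + 1) * (2 ^ T.card * sk (qs σ I hI) ⊤ * (Q + 1) ^ ν) := Nat.mul_le_mul (by nlinarith) h1
      _ = 2 ^ T.card * (sk σ I * sk (qs σ I hI) ⊤) * (Q + 1) ^ (ν + 1) := by ring
      _ ≤ _ := Nat.mul_le_mul_right _ (Nat.mul_le_mul_left _ k2)

/-- **the unit lemma** -/
theorem uu_le {ι : Type*} {c : R} {E : ι → R} {T : Finset (Ideal R)} {ν : ℕ} (hσ : ∀ x, σ (σ x) = x) (hc : c + σ c = 1)
    (hE : ∀ i, σ (E i) = E i) (hu : ∀ i j, i ≠ j → IsUnit (E i - E j))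
    (hT : ∀ M : Ideal R, M.IsMaximal → (∀ x, x - σ x ∈ M) → M ∈ T) (hν : sk σ ⊤ < Nat.card ι ^ (ν + 1)) :
    uu σ * Nat.card ι ^ ν ≤ 2 ^ T.card * sk σ ⊤ * (Nat.card ι + 1) ^ ν :=
  uu_le_aux _ R σ c E T ν rfl hσ hc hE hu hT hν

theorem uu_le_pow {ι : Type*} {c : R} {E : ι → R} {T : Finset (Ideal R)} {ν : ℕ} (hσ : ∀ x, σ (σ x) = x) (hc : c + σ c = 1)
    (hE : ∀ i, σ (E i) = E i) (hu : ∀ i j, i ≠ j → IsUnit (E i - E j))
    (hT : ∀ M : Ideal R, M.IsMaximal → (∀ x, x - σ x ∈ M) → M ∈ T) (h2 : 2 ≤ Nat.card ι) (hν : sk σ ⊤ ≤ Nat.card ι ^ ν) :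
    uu σ ≤ 2 ^ T.card * (Nat.card ι + 1) ^ ν := by
  have h1 := uu_le hσ hc hE hu hT (hν.trans_lt (Nat.pow_lt_pow_right h2 (Nat.lt_succ_self ν)))
  refine Nat.le_of_mul_le_mul_right (h1.trans ?_) (Nat.pow_pos (n := ν) (by omega : 0 < Nat.card ι))
  rw [mul_right_comm]
  exact Nat.mul_le_mul_left _ hν

/-- at most half of the dimension is skew -/
theorem sk_sq_le (hσ : ∀ x, σ (σ x) = x) {c δ : R} (hc : c + σ c = 1) (h : ∀ x, σ x = -x → ∃ t, σ t = t ∧ x = t * δ) :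
    sk σ ⊤ ^ 2 ≤ Nat.card R := by
  let φ : R →+ R := AddMonoidHom.id R - σ.toAddMonoidHom
  rw [AddSubgroup.card_eq_card_quotient_mul_card_addSubgroup φ.ker,
    Nat.card_congr (QuotientAddGroup.quotientKerEquivRange φ).toEquiv, pow_two]
  choose g hg hg' using fun x : {x : R // x ∈ (⊤ : Ideal R) ∧ σ x = -x} => h x.1 x.2.2
  refine Nat.mul_le_mul (Nat.card_le_card_of_injective (fun x => ⟨x.1, c * x.1, ?_⟩) fun _ _ e => Subtype.ext (Subtype.mk.inj e))
    (Nat.card_le_card_of_injective (fun x => ⟨g x, sub_eq_zero.2 (hg x).symm⟩) fun x y e =>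
      Subtype.ext (by rw [hg', hg' y, show g x = g y from Subtype.mk.inj e]))
  show c * x.1 - σ (c * x.1) = x.1
  rw [map_mul, x.2.2]
  linear_combination x.1 * hc

/-- there is a skew unit (unitary and linear groups) -/
theorem sk_sq_le_unit (hσ : ∀ x, σ (σ x) = x) {c δ : R} (hc : c + σ c = 1) (hδ : σ δ = -δ) (hu : IsUnit δ) :
    sk σ ⊤ ^ 2 ≤ Nat.card R := by
  obtain ⟨w, hw⟩ := hu.exists_left_inv
  have h1 := congrArg σ hw
  rw [map_mul, hδ, map_one] at h1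
  refine sk_sq_le hσ hc (δ := δ) fun x hx => ⟨x * w, ?_, by rw [mul_assoc, hw, mul_one]⟩
  rw [map_mul, hx]
  linear_combination x * w * h1 + x * σ w * hw

omit [Finite R] in
theorem gen_of {a : R} (hσ : ∀ x, σ (σ x) = x) (ha : a * σ a = 1)
    (h : ∀ P : Subring R, (∀ s, σ s = s → s ∈ P) → a ∈ P → P = ⊤) (x : R) : ∃ s t, σ s = s ∧ σ t = t ∧ x = s + t * a := by
  let P : Subring R :=
    { carrier := {x | ∃ s t, σ s = s ∧ σ t = t ∧ x = s + t * a}
      mul_mem' := by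
        rintro _ _ ⟨s, t, hs, ht, rfl⟩ ⟨s', t', hs', ht', rfl⟩
        refine ⟨s * s' - t * t', s * t' + t * s' + t * t' * (a + σ a), by simp only [map_sub, map_mul, hs, ht, hs', ht'],
          by simp only [map_add, map_mul, hs, ht, hs', ht', hσ, add_comm a], ?_⟩
        linear_combination (-(t * t')) * ha
      one_mem' := ⟨1, 0, map_one σ, map_zero σ, by simp⟩
      add_mem' := by
        rintro _ _ ⟨s, t, hs, ht, rfl⟩ ⟨s', t', hs', ht', rfl⟩
        exact ⟨s + s', t + t', by rw [map_add, hs, hs'], by rw [map_add, ht, ht'], by ring⟩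
      zero_mem' := ⟨0, 0, map_zero σ, map_zero σ, by simp⟩
      neg_mem' := by
        rintro _ ⟨s, t, hs, ht, rfl⟩
        exact ⟨-s, -t, by rw [map_neg, hs], by rw [map_neg, ht], by ring⟩ }
  have h1 : x ∈ P := h P (fun s hs => ⟨s, 0, hs, map_zero σ, by simp⟩) ⟨0, 1, map_zero σ, map_one σ, by simp⟩ ▸ trivial
  exact h1

/-- the ring is generated by the symmetric elements and a unitary element -/
theorem sk_sq_le_gen {a c : R} (hσ : ∀ x, σ (σ x) = x) (hc : c + σ c = 1) (ha : a * σ a = 1)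
    (h : ∀ P : Subring R, (∀ s, σ s = s → s ∈ P) → a ∈ P → P = ⊤) : sk σ ⊤ ^ 2 ≤ Nat.card R := by
  refine sk_sq_le hσ hc (δ := a - σ a) fun x hx => ?_
  obtain ⟨s, t, hs, ht, e⟩ := gen_of hσ ha h (c * x)
  have e' := congrArg σ e
  rw [map_mul, map_add, map_mul, hs, ht, hx] at e'
  exact ⟨t, ht, by linear_combination e - e' - x * hc⟩

omit [Finite R] in
/-- the maximal ideals with trivial involution contain `a - 1` or `a + 1` -/
theorem triv_cases {a : R} (ha : a * σ a = 1) {M : Ideal R} (hM : M.IsMaximal) (h : ∀ x, x - σ x ∈ M) :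
    a - 1 ∈ M ∨ a + 1 ∈ M := by
  refine hM.isPrime.mem_or_mem ?_
  have h1 := M.mul_mem_left a (h a)
  rwa [show a * (a - σ a) = (a - 1) * (a + 1) by linear_combination -ha] at h1

omit [Finite R] in
theorem eq_span {b : R} (h : ∀ x : R, ∃ t, (t = 0 ∨ IsUnit t) ∧ x - t ∈ Ideal.span {b}) {M : Ideal R} (hM : M.IsMaximal)
    (hb : b ∈ M) : M = Ideal.span {b} := by
  have h1 := (Ideal.span_singleton_le_iff_mem M).2 hb
  refine le_antisymm (fun x hx => ?_) h1
  obtain ⟨t, rfl | ht, h2⟩ := h x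
  · rwa [sub_zero] at h2
  · exact absurd (Ideal.eq_top_of_isUnit_mem M (by simpa using M.sub_mem hx (h1 h2)) ht) hM.ne_top

end Cfsg.Agent.N2.Cy
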